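import Mathlib
import Cfsg.Agent.Lib.ClassicalLinear.Generation

/-!
`SL_{n+1}(K)` is generated by a full root group and a monomial element of a cyclic permutation.
-/

set_option autoImplicit false

open Matrix
open scoped MatrixGroups
open Fin.NatCast

namespace CfsgLib.KnownSimple.CycleGen

variable {K : Type*} [Field K] {n : ℕ}

/-- The signs of the cyclic monomial matrix. -/
def eps (K : Type*) [Field K] (n : ℕ) (i : Fin (n + 1)) : K :=
  if i.val = n then (-1) ^ n else 1

lemma eps_ne_zero (i : Fin (n + 1)) : eps K n i ≠ 0 := by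
  rw [eps]; split_ifs <;> simp

/-- The cyclic monomial matrix, entrywise. -/
lemma cycle_apply (w : SL(n + 1, K))
    (hw : (w : Matrix (Fin (n + 1)) (Fin (n + 1)) K) =
      Matrix.of (fun i j => if j.val = i.val + 1 then 1 else if i.val = n ∧ j.val = 0 then (-1) ^ n else 0))
    (i j : Fin (n + 1)) : w.1 i j = if j = i + 1 then eps K n i else 0 := by
  rw [hw]
  simp only [Matrix.of_apply]
  have hi := i.isLt
  have hj := j.isLt
  have hv : (i + 1).val = if i.val = n then 0 else i.val + 1 := by
    rw [Fin.val_add_one]
    simp [Fin.ext_iff]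
  by_cases hin : i.val = n
  · rw [if_neg (by omega), eps, if_pos hin]
    simp only [Fin.ext_iff, hv, hin, if_true, true_and]
  · rw [eps, if_neg hin]
    simp only [Fin.ext_iff, hv, hin, if_false, false_and]

variable (w : SL(n + 1, K))
  (hw : (w : Matrix (Fin (n + 1)) (Fin (n + 1)) K) =
      Matrix.of (fun i j => if j.val = i.val + 1 then 1 else if i.val = n ∧ j.val = 0 then (-1) ^ n else 0))
include hw

lemma cycle_mul_apply (M : Matrix (Fin (n + 1)) (Fin (n + 1)) K) (i l : Fin (n + 1)) :
    (w.1 * M) i l = eps K n i * M (i + 1) l := by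
  simp [Matrix.mul_apply, cycle_apply w hw]

lemma mul_cycle_apply (M : Matrix (Fin (n + 1)) (Fin (n + 1)) K) (i l : Fin (n + 1)) :
    (M * w.1) i l = M i (l - 1) * eps K n (l - 1) := by
  rw [Matrix.mul_apply, Finset.sum_eq_single (l - 1)]
  · simp [cycle_apply w hw]
  · intro b _ hb
    rw [cycle_apply w hw, if_neg (fun h => hb (by rw [h, add_sub_cancel_right])), mul_zero]
  · simp

lemma cycle_mul_diagonal (d : Fin (n + 1) → K) :
    w.1 * diagonal d = diagonal (fun i => d (i + 1)) * w.1 := by
  ext i l
  rw [Matrix.mul_diagonal, Matrix.diagonal_mul, cycle_apply w hw]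
  by_cases h : l = i + 1
  · subst h; simp [mul_comm]
  · simp [h]

/-- Conjugation by the cycle shifts the root groups. -/
lemma cycle_conj {i j : Fin (n + 1)} (h : i ≠ j) (t u : K)
    (hu : u * eps K n j = eps K n i * t) :
    w * SpecialLinearGroup.transvection (show i + 1 ≠ j + 1 from fun e => h (add_right_cancel e)) t * w⁻¹ =
      SpecialLinearGroup.transvection h u := by
  rw [mul_inv_eq_iff_eq_mul]
  refine Subtype.ext ?_
  show w.1 * Matrix.transvection (i + 1) (j + 1) t = Matrix.transvection i j u * w.1
  simp only [Matrix.transvection, mul_add, add_mul, mul_one, one_mul]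
  congr 1
  ext a b
  rw [cycle_mul_apply w hw, mul_cycle_apply w hw]
  simp only [Matrix.single_apply]
  by_cases h1 : i = a ∧ j = b - 1
  · obtain ⟨rfl, rfl⟩ := h1
    rw [if_pos (show i + 1 = i + 1 ∧ b - 1 + 1 = b from ⟨rfl, sub_add_cancel b 1⟩),
      if_pos (show i = i ∧ b - 1 = b - 1 from ⟨rfl, rfl⟩), hu]
  · rw [if_neg h1, if_neg (fun e => h1 ⟨add_right_cancel e.1, by rw [← e.2, add_sub_cancel_right]⟩)]
    simp

/-- A full simple root group together with the cycle generates. -/
theorem eq_top (H : Subgroup (SL(n + 1, K))) (hwH : w ∈ H)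
    (h01 : (0 : Fin (n + 1)) ≠ 1)
    (hx : ∀ t : K, SpecialLinearGroup.transvection h01 t ∈ H) : H = ⊤ := by
  classical
  -- all roots `(i, i + 1)`
  have hsimple : ∀ (i : Fin (n + 1)) (h : i ≠ i + 1) (t : K),
      SpecialLinearGroup.transvection h t ∈ H := by
    have hk : ∀ (k : ℕ) (i : Fin (n + 1)), i + (k : Fin (n + 1)) = 0 → ∀ (h : i ≠ i + 1) (t : K),
        SpecialLinearGroup.transvection h t ∈ H := by
      intro k
      induction k with
      | zero =>
        intro i hi h t
        obtain rfl : i = 0 := by simpa using hi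
        have e : ∀ (a b : Fin (n + 1)) (hab : a ≠ b), a = 0 → b = 1 →
            SpecialLinearGroup.transvection hab t ∈ H := by
          rintro a b hab rfl rfl; exact hx t
        exact e _ _ h rfl (zero_add 1)
      | succ k ih =>
        intro i hi h t
        have hi' : i + 1 + (k : Fin (n + 1)) = 0 := by
          rw [← hi]; push_cast; abel
        have := ih (i + 1) hi' (fun e => h (add_right_cancel e)) ((eps K n i)⁻¹ * t * eps K n (i + 1))
        rw [← cycle_conj w hw h ((eps K n i)⁻¹ * t * eps K n (i + 1)) t (by
          field_simp [eps_ne_zero (K := K) i])]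
        exact H.mul_mem (H.mul_mem hwH this) (H.inv_mem hwH)
    intro i
    exact hk (-i).val i (by rw [Fin.cast_val_eq_self, add_neg_cancel])
  -- all roots
  refine CfsgLib.ClassicalLinear.eq_top_of_transvection_mem ?_
  have hstep : ∀ (m : ℕ), 1 ≤ m → m ≤ n → ∀ (i j : Fin (n + 1)) (h : i ≠ j),
      j = i + (m : Fin (n + 1)) → ∀ t, SpecialLinearGroup.transvection h t ∈ H := by
    intro m hm
    induction m, hm using Nat.le_induction with
    | base => intro _ i j h hj t; subst hj; revert h; rw [Nat.cast_one]; exact fun h => hsimple i h t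
    | succ m hm ih =>
      intro hmn i j h hj t
      have hik : i ≠ i + (m : Fin (n + 1)) := fun e => by
        have : (m : Fin (n + 1)) = 0 := by simpa using e.symm
        rw [Fin.natCast_eq_zero] at this
        exact absurd (Nat.le_of_dvd (by omega) this) (by omega)
      have hkj : i + (m : Fin (n + 1)) ≠ j := fun e => by
        rw [hj] at e
        have : (1 : Fin (n + 1)) = 0 := by simpa [add_assoc] using (add_left_cancel e).symm
        exact h01 this.symm
      rw [← mul_one t, ← CfsgLib.ClassicalLinear.commutator_transvection h hik hkj t 1]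
      have h1 := ih (by omega) i _ hik rfl t
      have h2 : SpecialLinearGroup.transvection hkj (1 : K) ∈ H := by
        have hj' : j = i + (m : Fin (n + 1)) + 1 := by rw [hj]; push_cast; abel
        subst hj'
        exact hsimple _ hkj 1
      rw [commutatorElement_def]
      exact H.mul_mem (H.mul_mem (H.mul_mem h1 h2) (H.inv_mem h1)) (H.inv_mem h2)
  intro i j hij t
  refine hstep (j - i).val ?_ (by omega) i j hij (by rw [Fin.cast_val_eq_self, add_sub_cancel]) t
  have : (j - i).val ≠ 0 := fun e => hij (sub_eq_zero.1 (Fin.ext e : j - i = 0)).symm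
  omega

end CfsgLib.KnownSimple.CycleGen
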